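import Cfsg.Agent.Lib.Forms.Basic

/-!
Self-adjoint endomorphisms of square zero of a space with a symmetric or Hermitian form, in
characteristic two: when two of them are intertwined by an isometry.
-/

set_option autoImplicit false

namespace CfsgLib.InvolutionClasses

open Module

variable {F V : Type*} [Field F] [CharP F 2] [AddCommGroup V] [Module F V] [FiniteDimensional F V]
  {σ : F →+* F} {B : V →ₛₗ[σ] V →ₗ[F] F}

omit [CharP F 2] [FiniteDimensional F V] in
/-- A functional with prescribed values on an independent family. -/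
theorem exists_dual_apply_eq {ι : Type*} {w : ι → V} (hw : LinearIndependent F w) (c : ι → F) :
    ∃ f : Module.Dual F V, ∀ i, f (w i) = c i := by
  obtain ⟨f, hf⟩ := LinearMap.exists_extend ((Basis.span hw).constr F c)
  refine ⟨f, fun i => ?_⟩
  have h := LinearMap.congr_fun hf (Basis.span hw i)
  rwa [LinearMap.comp_apply, Submodule.subtype_apply, Basis.constr_basis, Basis.coe_span_apply] at h

omit [CharP F 2] [FiniteDimensional F V] in
/-- The images of a family with non-singular Gram matrix are independent. -/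
theorem linearIndependent_image {ι : Type*} [Fintype ι] {N : V →ₗ[F] V} {e : ι → V}
    {Γ : ι → ι → F} (hΓ : ∀ i j, B (e i) (N (e j)) = Γ i j)
    (hnd : ∀ c : ι → F, (∀ i, ∑ j, c j * Γ i j = 0) → c = 0) :
    LinearIndependent F fun j => N (e j) := by
  rw [Fintype.linearIndependent_iff]
  intro c hc
  refine congrFun (hnd c fun i => ?_)
  simpa [map_sum, hΓ] using congrArg (B (e i)) hc

/-- A family can be moved by the range of a self-adjoint square zero map to a totally isotropic
one, if every value `B x x` is a trace. -/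
theorem exists_isotropic_family (hσ2 : ∀ a, σ (σ a) = a) (hS : B.IsSymm)
    (hB : B.SeparatingRight) (htr : ∀ x, ∃ c, c + σ c = B x x) {N : V →ₗ[F] V}
    (hN : ∀ v, N (N v) = 0) (hadj : ∀ u v, B (N u) v = B u (N v))
    {ι : Type*} [Fintype ι] {e : ι → V} {Γ : ι → ι → F} (hΓ : ∀ i j, B (e i) (N (e j)) = Γ i j)
    (hnd : ∀ c : ι → F, (∀ i, ∑ j, c j * Γ i j = 0) → c = 0) :
    ∃ e' : ι → V, (∀ i j, B (e' i) (N (e' j)) = Γ i j) ∧ ∀ i j, B (e' i) (e' j) = 0 := by
  classical
  have := CfsgLib.Forms.ringHomSurjective_of_involutive hσ2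
  have h2 : ∀ x : F, x + x = 0 := CharTwo.add_self_eq_zero
  obtain ⟨idx, hidx⟩ : ∃ idx : ι → Fin (Fintype.card ι), Function.Injective idx :=
    ⟨_, (Fintype.equivFin ι).injective⟩
  choose c hc using fun i => htr (e i)
  let M : ι → ι → F := fun i j =>
    if i = j then c i else if idx i < idx j then B (e i) (e j) else 0
  have hM : ∀ i j, M i j + σ (M j i) = B (e i) (e j) := by
    intro i j
    by_cases hij : i = j
    · subst hij; simp [M, hc]
    · rcases lt_or_gt_of_ne (hidx.ne hij) with h | h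
      · simp [M, hij, Ne.symm hij, h, h.not_gt]
      · simp [M, hij, Ne.symm hij, h, h.not_gt, hS.eq]
  choose f hf using fun i => exists_dual_apply_eq (linearIndependent_image hΓ hnd) (M i)
  choose x hx using fun i => CfsgLib.Forms.exists_apply_eq B hB (f i)
  have hxe : ∀ i j, B (x i) (N (e j)) = M i j := fun i j => by rw [hx, hf]
  refine ⟨fun i => e i + N (x i), fun i j => ?_, fun i j => ?_⟩
  · simp [map_add, hN, hΓ, hadj]
  · simp only [map_add, LinearMap.add_apply]
    rw [show B (N (x i)) (N (x j)) = 0 by rw [hadj, hN, map_zero],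
      show B (N (x i)) (e j) = M i j by rw [hadj, hxe],
      show B (e i) (N (x j)) = σ (M j i) by rw [← hadj, ← hxe, hS.eq], ← hM i j]
    linear_combination h2 (M i j) + h2 (σ (M j i))

omit [CharP F 2] in
/-- The general step: families with equal non-singular Gram matrices and totally isotropic give
an intertwining isometry, given Witt's theorem. -/
theorem exists_isometry_comm_of_isotropic
    (witt : ∀ (X : Submodule F V) (f : X →ₗ[F] V), Function.Injective f →
      (∀ x x' : X, B (f x) (f x') = B (x : V) (x' : V)) →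
      ∃ g : V ≃ₗ[F] V, (∀ u v, B (g u) (g v) = B u v) ∧ ∀ x : X, g (x : V) = f x)
    {N N' : V →ₗ[F] V} (hN : ∀ v, N (N v) = 0) (hN' : ∀ v, N' (N' v) = 0)
    (hadj : ∀ u v, B (N u) v = B u (N v)) (hadj' : ∀ u v, B (N' u) v = B u (N' v))
    {ι : Type*} [Fintype ι] {e e' : ι → V} {Γ : ι → ι → F}
    (hΓ : ∀ i j, B (e i) (N (e j)) = Γ i j) (hΓ' : ∀ i j, B (e' i) (N' (e' j)) = Γ i j)
    (hnd : ∀ c : ι → F, (∀ i, ∑ j, c j * Γ i j = 0) → c = 0)
    (he : ∀ i j, B (e i) (e j) = 0) (he' : ∀ i j, B (e' i) (e' j) = 0)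
    (hr : finrank F (LinearMap.range N) = Fintype.card ι)
    (hr' : finrank F (LinearMap.range N') = Fintype.card ι) :
    ∃ g : V ≃ₗ[F] V, (∀ u v, B (g u) (g v) = B u v) ∧ (∀ v, g (N v) = N' (g v)) ∧
      ∀ i, g (e i) = e' i := by
  classical
  have li : ∀ {N : V →ₗ[F] V}, (∀ v, N (N v) = 0) → (∀ u v, B (N u) v = B u (N v)) →
      ∀ {e : ι → V}, (∀ i j, B (e i) (N (e j)) = Γ i j) →
      LinearIndependent F (Sum.elim e fun j => N (e j)) := by
    intro N hN hadj e hΓ
    rw [Fintype.linearIndependent_iff]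
    intro g hg
    simp only [Fintype.sum_sum_type, Sum.elim_inl, Sum.elim_inr] at hg
    have h1 : (fun j => g (Sum.inl j)) = 0 := hnd _ fun i => by
      have := congrArg (B (N (e i))) hg
      simpa [map_sum, hadj, hN, hΓ] using this
    have h2 : ∑ j, g (Sum.inr j) • N (e j) = 0 := by simpa [congrFun h1] using hg
    rintro (i | i)
    · exact congrFun h1 i
    · exact Fintype.linearIndependent_iff.1 (linearIndependent_image hΓ hnd) _ h2 i
  let b := Basis.span (li hN hadj hΓ)
  let f := b.constr F (Sum.elim e' fun j => N' (e' j))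
  have hfb : ∀ i, f (b i) = Sum.elim e' (fun j => N' (e' j)) i := fun i => b.constr_basis F _ i
  have hbv : ∀ i, (b i : V) = Sum.elim e (fun j => N (e j)) i := fun i => Basis.coe_span_apply _ i
  have hfinj : Function.Injective f := by
    rw [injective_iff_map_eq_zero]
    intro y hy
    have hy' := congrArg f (b.sum_repr y)
    rw [hy, map_sum] at hy'
    simp only [map_smul, hfb] at hy'
    have := Fintype.linearIndependent_iff.1 (li hN' hadj' hΓ') (fun i => b.repr y i) hy'
    rw [← b.sum_repr y]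
    simp [this]
  have hgram : ∀ i j, B (Sum.elim e' (fun j => N' (e' j)) i) (Sum.elim e' (fun j => N' (e' j)) j) =
      B (Sum.elim e (fun j => N (e j)) i) (Sum.elim e (fun j => N (e j)) j) := by
    rintro (i | i) (j | j) <;> simp [he, he', hΓ, hΓ', hadj, hadj', hN, hN']
  obtain ⟨g, hg, hgf⟩ := witt _ f hfinj fun y y' => by
    conv_rhs => rw [← b.sum_repr y, ← b.sum_repr y']
    conv_lhs => rw [← b.sum_repr y, ← b.sum_repr y']
    simp only [Submodule.coe_sum, Submodule.coe_smul, map_sum, map_smulₛₗ, LinearMap.sum_apply,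
      LinearMap.smul_apply, RingHom.id_apply, hfb, hbv, hgram]
  have hge : ∀ i, g (Sum.elim e (fun j => N (e j)) i) = Sum.elim e' (fun j => N' (e' j)) i :=
    fun i => by rw [← hbv, hgf, hfb]
  have span_eq : ∀ {N : V →ₗ[F] V} {e : ι → V}, (∀ i j, B (e i) (N (e j)) = Γ i j) →
      finrank F (LinearMap.range N) = Fintype.card ι → ∀ v, ∃ c : ι → F,
      ∑ j, c j • N (e j) = N v := by
    intro N e hΓ hr v
    refine (Submodule.mem_span_range_iff_exists_fun F).1 ?_
    rw [Submodule.eq_of_le_of_finrank_eq (S₂ := LinearMap.range N)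
      (Submodule.span_le.2 (by rintro _ ⟨j, rfl⟩; exact LinearMap.mem_range_self N _))
      (by rw [finrank_span_eq_card (linearIndependent_image hΓ hnd), hr])]
    exact LinearMap.mem_range_self N v
  refine ⟨g, hg, fun v => ?_, fun i => hge (Sum.inl i)⟩
  obtain ⟨c, hc⟩ := span_eq hΓ hr v
  obtain ⟨c', hc'⟩ := span_eq hΓ' hr' (g v)
  have key : c' = c := by
    refine sub_eq_zero.1 (hnd (c' - c) fun i => ?_)
    have h1 : B (e' i) (N' (g v)) = B (e i) (N v) := by
      rw [← hadj', ← hadj, ← hg (N (e i)) v]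
      congr 2
      exact (hge (Sum.inr i)).symm
    rw [← hc, ← hc'] at h1
    simp only [map_sum, map_smul, hΓ, hΓ', smul_eq_mul] at h1
    simp only [Pi.sub_apply, sub_mul, Finset.sum_sub_distrib, h1, sub_self]
  rw [← hc, ← hc', key, map_sum]
  exact Finset.sum_congr rfl fun j _ => by rw [map_smul]; congr 1; exact hge (Sum.inr j)

/-- Two self-adjoint square zero maps having families with the same non-singular Gram matrix,
indexed by a type of cardinality their rank, are intertwined by an isometry. The returned family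
is totally isotropic. -/
theorem exists_isometry_comm (hσ2 : ∀ a, σ (σ a) = a) (hS : B.IsSymm) (hB : B.SeparatingRight)
    (htr : ∀ x, ∃ c, c + σ c = B x x)
    (witt : ∀ (X : Submodule F V) (f : X →ₗ[F] V), Function.Injective f →
      (∀ x x' : X, B (f x) (f x') = B (x : V) (x' : V)) →
      ∃ g : V ≃ₗ[F] V, (∀ u v, B (g u) (g v) = B u v) ∧ ∀ x : X, g (x : V) = f x)
    {N N' : V →ₗ[F] V} (hN : ∀ v, N (N v) = 0) (hN' : ∀ v, N' (N' v) = 0)
    (hadj : ∀ u v, B (N u) v = B u (N v)) (hadj' : ∀ u v, B (N' u) v = B u (N' v))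
    {ι : Type*} [Fintype ι] {e e' : ι → V} {Γ : ι → ι → F}
    (hΓ : ∀ i j, B (e i) (N (e j)) = Γ i j) (hΓ' : ∀ i j, B (e' i) (N' (e' j)) = Γ i j)
    (hnd : ∀ c : ι → F, (∀ i, ∑ j, c j * Γ i j = 0) → c = 0)
    (hr : finrank F (LinearMap.range N) = Fintype.card ι)
    (hr' : finrank F (LinearMap.range N') = Fintype.card ι) :
    ∃ g : V ≃ₗ[F] V, (∀ u v, B (g u) (g v) = B u v) ∧ (∀ v, g (N v) = N' (g v)) ∧
      ∃ u : ι → V, (∀ i j, B (u i) (N (u j)) = Γ i j) ∧ ∀ i j, B (u i) (u j) = 0 := by
  obtain ⟨u, hu, hu0⟩ := exists_isotropic_family hσ2 hS hB htr hN hadj hΓ hnd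
  obtain ⟨u', hu', hu0'⟩ := exists_isotropic_family hσ2 hS hB htr hN' hadj' hΓ' hnd
  obtain ⟨g, hg, hgN, -⟩ := exists_isometry_comm_of_isotropic witt hN hN' hadj hadj' hu hu' hnd
    hu0 hu0' hr hr'
  exact ⟨g, hg, hgN, u, hu, hu0⟩

omit [CharP F 2] in
/-- The restriction of `B u (N v)` to a complement of the kernel is non-degenerate. -/
theorem exists_gram_complement (hB : B.SeparatingLeft) {N : V →ₗ[F] V}
    (hadj : ∀ u v, B (N u) v = B u (N v)) :
    ∃ W : Submodule F V, finrank F W = finrank F (LinearMap.range N) ∧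
      (∀ v, ∃ w ∈ W, N w = N v) ∧
      ∀ w ∈ W, (∀ w' ∈ W, B w (N w') = 0) → w = 0 := by
  obtain ⟨W, hW⟩ := Submodule.exists_isCompl (LinearMap.ker N)
  have hdec : ∀ v, ∃ w ∈ W, N w = N v := fun v => by
    obtain ⟨k, hk, w, hw, rfl⟩ := Submodule.mem_sup.1
      (hW.sup_eq_top ▸ Submodule.mem_top : v ∈ LinearMap.ker N ⊔ W)
    exact ⟨w, hw, by simp [LinearMap.mem_ker.1 hk]⟩
  refine ⟨W, ?_, hdec, fun w hw h => ?_⟩
  · have h1 := Submodule.finrank_add_eq_of_isCompl hW
    have h2 := LinearMap.finrank_range_add_finrank_ker N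
    omega
  · refine Submodule.disjoint_def.1 hW.disjoint w ?_ hw
    refine LinearMap.mem_ker.2 (hB _ fun v => ?_)
    obtain ⟨w', hw', e⟩ := hdec v
    rw [hadj, ← e, h w' hw']

end CfsgLib.InvolutionClasses
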