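import Mathlib

/-!
A normal form for endomorphisms of square zero, and conjugacy by elements of determinant one.
-/

set_option autoImplicit false

namespace CfsgLib.InvolutionClasses

open Module

variable {F V : Type*} [Field F] [AddCommGroup V] [Module F V] [FiniteDimensional F V]

/-- An endomorphism with square zero has a basis in which it moves the first block to the
second one and kills the other two. -/
theorem exists_basis_of_sq_zero (N : V →ₗ[F] V) (h : ∀ v, N (N v) = 0) :
    ∃ b : Basis (Fin (finrank F (LinearMap.range N)) ⊕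
        (Fin (finrank F (LinearMap.range N)) ⊕ Fin (finrank F V - 2 * finrank F (LinearMap.range N))))
        F V,
      (∀ i, N (b (Sum.inl i)) = b (Sum.inr (Sum.inl i))) ∧ ∀ j, N (b (Sum.inr j)) = 0 := by
  classical
  set r := finrank F (LinearMap.range N) with hr
  let bR := Module.finBasis F (LinearMap.range N)
  choose u hu using fun i => LinearMap.mem_range.1 (bR i).2
  have hle : LinearMap.range N ≤ LinearMap.ker N := by
    rintro _ ⟨v, rfl⟩
    exact LinearMap.mem_ker.2 (h v)
  obtain ⟨C, hC⟩ := Submodule.exists_isCompl ((LinearMap.range N).comap (LinearMap.ker N).subtype)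
  have hdim := LinearMap.finrank_range_add_finrank_ker N
  have hRR : finrank F ((LinearMap.range N).comap (LinearMap.ker N).subtype) = r :=
    LinearEquiv.finrank_eq (Submodule.comapSubtypeEquivOfLe hle)
  have hsum := Submodule.finrank_add_eq_of_isCompl hC
  have hCm : finrank F C = finrank F V - 2 * r := by omega
  let bC : Basis (Fin (finrank F V - 2 * r)) F C := Module.finBasisOfFinrankEq F C hCm
  let vec : Fin r ⊕ (Fin r ⊕ Fin (finrank F V - 2 * r)) → V :=
    Sum.elim u (Sum.elim (fun i => (bR i : V)) fun j => (((bC j : C) : LinearMap.ker N) : V))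
  have hN : ∀ x, N (vec x) = Sum.elim (fun i => (bR i : V)) (fun _ => 0) x := by
    rintro (i | i | j)
    · exact hu i
    · exact LinearMap.mem_ker.1 (hle (bR i).2)
    · exact LinearMap.mem_ker.1 ((bC j : C) : LinearMap.ker N).2
  have hli : LinearIndependent F vec := by
    rw [Fintype.linearIndependent_iff]
    intro g hg
    have hbR := Fintype.linearIndependent_iff.1 bR.linearIndependent
    have hbC := Fintype.linearIndependent_iff.1 bC.linearIndependent
    have h1 := congrArg N hg
    rw [map_sum, map_zero] at h1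
    simp only [map_smul, hN, Fintype.sum_sum_type, Sum.elim_inl, Sum.elim_inr, smul_zero,
      Finset.sum_const_zero, add_zero] at h1
    have ha : ∀ i, g (Sum.inl i) = 0 :=
      hbR _ (Subtype.ext (by simpa using h1))
    have h2 : (∑ i, g (Sum.inr (Sum.inl i)) • (bR i : V)) +
        ∑ j, g (Sum.inr (Sum.inr j)) • (((bC j : C) : LinearMap.ker N) : V) = 0 := by
      simpa [Fintype.sum_sum_type, vec, ha] using hg
    set x : LinearMap.ker N := ⟨∑ i, g (Sum.inr (Sum.inl i)) • (bR i : V),
      Submodule.sum_mem _ fun i _ => Submodule.smul_mem _ _ (hle (bR i).2)⟩ with hx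
    set y : C := ∑ j, g (Sum.inr (Sum.inr j)) • bC j with hy
    have hxR : x ∈ (LinearMap.range N).comap (LinearMap.ker N).subtype :=
      show (∑ i, g (Sum.inr (Sum.inl i)) • (bR i : V)) ∈ LinearMap.range N from
        Submodule.sum_mem _ fun i _ => Submodule.smul_mem _ _ (bR i).2
    have hxy : x + (y : LinearMap.ker N) = 0 := by
      refine Subtype.ext ?_
      simpa [hx, hy] using h2
    have hx0 : x = 0 := by
      refine Submodule.disjoint_def.1 hC.disjoint x hxR ?_
      rw [eq_neg_of_add_eq_zero_left hxy]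
      exact C.neg_mem y.2
    rw [hx0, zero_add] at hxy
    have hb' := hbR (fun i => g (Sum.inr (Sum.inl i))) (Subtype.ext (by
      simpa [hx] using congrArg Subtype.val hx0))
    have hc' := hbC (fun j => g (Sum.inr (Sum.inr j))) (Subtype.ext hxy)
    rintro (i | i | j)
    · exact ha i
    · exact hb' i
    · exact hc' j
  have hcardeq : Fintype.card (Fin r ⊕ (Fin r ⊕ Fin (finrank F V - 2 * r))) = finrank F V := by
    simp only [Fintype.card_sum, Fintype.card_fin]
    omega
  have hspan := hli.span_eq_top_of_card_eq_finrank' hcardeq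
  refine ⟨Basis.mk hli hspan.ge, fun i => ?_, fun j => ?_⟩
  · rw [Basis.mk_apply, Basis.mk_apply, hN]
    rfl
  · rw [Basis.mk_apply, hN]
    rfl

/-- Two nonzero endomorphisms of square zero and equal rank are conjugate under an element of
determinant one, if every element of the field is a square. -/
theorem exists_det_one_comm {N N' : V →ₗ[F] V} (h : ∀ v, N (N v) = 0) (h' : ∀ v, N' (N' v) = 0)
    (hr : finrank F (LinearMap.range N) = finrank F (LinearMap.range N'))
    (hpos : 0 < finrank F (LinearMap.range N)) (hsq : ∀ x : F, IsSquare x) :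
    ∃ g : V →ₗ[F] V, LinearMap.det g = 1 ∧ g ∘ₗ N = N' ∘ₗ g := by
  classical
  obtain ⟨b, hb1, hb2⟩ := exists_basis_of_sq_zero N h
  obtain ⟨b', hb1', hb2'⟩ : ∃ b : Basis (Fin (finrank F (LinearMap.range N)) ⊕
      (Fin (finrank F (LinearMap.range N)) ⊕ Fin (finrank F V - 2 * finrank F (LinearMap.range N))))
      F V, (∀ i, N' (b (Sum.inl i)) = b (Sum.inr (Sum.inl i))) ∧ ∀ j, N' (b (Sum.inr j)) = 0 := by
    rw [hr]; exact exists_basis_of_sq_zero N' h'
  let e : V ≃ₗ[F] V := b.equiv b' (Equiv.refl _)
  have he : LinearMap.det (e : V →ₗ[F] V) ≠ 0 := (LinearEquiv.isUnit_det' e).ne_zero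
  obtain ⟨s, hs⟩ := hsq (LinearMap.det (e : V →ₗ[F] V))⁻¹
  let i₀ : Fin (finrank F (LinearMap.range N)) := ⟨0, hpos⟩
  let ι := Fin (finrank F (LinearMap.range N)) ⊕
    (Fin (finrank F (LinearMap.range N)) ⊕ Fin (finrank F V - 2 * finrank F (LinearMap.range N)))
  let w : ι → F := fun x => if x = Sum.inl i₀ ∨ x = Sum.inr (Sum.inl i₀) then s else 1
  let d : V →ₗ[F] V := b'.constr F fun x => w x • b' x
  have hd : ∀ x, d (b' x) = w x • b' x := fun x => b'.constr_basis F _ x
  have hdet : LinearMap.det d = s * s := by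
    rw [← LinearMap.det_toMatrix b']
    have : LinearMap.toMatrix b' b' d = Matrix.diagonal w := by
      ext x y
      rw [LinearMap.toMatrix_apply, hd, map_smul, Basis.repr_self]
      by_cases hxy : x = y
      · subst hxy; simp
      · simp [hxy, Ne.symm hxy]
    rw [this, Matrix.det_diagonal, Finset.prod_ite, Finset.prod_const_one, mul_one, Finset.prod_const]
    have : (Finset.univ.filter fun x : ι => x = Sum.inl i₀ ∨ x = Sum.inr (Sum.inl i₀)) =
        {Sum.inl i₀, Sum.inr (Sum.inl i₀)} := by ext; simp
    rw [this, Finset.card_pair (by simp), pow_two]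
  refine ⟨d ∘ₗ (e : V →ₗ[F] V), ?_, b.ext fun x => ?_⟩
  · rw [LinearMap.det_comp, hdet, ← hs, inv_mul_cancel₀ he]
  · simp only [LinearMap.comp_apply, LinearEquiv.coe_coe, e, Basis.equiv_apply, Equiv.refl_apply, hd,
      map_smul]
    rcases x with i | j
    · rw [hb1, hb1', Basis.equiv_apply, Equiv.refl_apply, hd]
      congr 1
      by_cases hi : i = i₀ <;> simp [w, hi, Sum.inl.injEq, Sum.inr.injEq, ι]
    · rw [hb2, hb2', map_zero, map_zero, smul_zero]

end CfsgLib.InvolutionClasses
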