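import Mathlib

/-!
Orthonormal families for non-alternating symmetric forms in characteristic two.
-/

set_option autoImplicit false

namespace CfsgLib.InvolutionClasses

open Module

variable {F V : Type*} [Field F] [CharP F 2] [AddCommGroup V] [Module F V] [FiniteDimensional F V]

omit [CharP F 2] in
/-- The orthogonal of a unit vector inside a subspace. -/
theorem split_unit (P : LinearMap.BilinForm F V) (hP : ∀ x y, P x y = P y x) {W : Submodule F V}
    (hnd : ∀ w ∈ W, (∀ w' ∈ W, P w w' = 0) → w = 0) {a : V} (ha : a ∈ W) (haa : P a a = 1) :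
    finrank F (W ⊓ LinearMap.ker (P a) : Submodule F V) + 1 = finrank F W ∧
      ∀ w ∈ W ⊓ LinearMap.ker (P a),
        (∀ w' ∈ W ⊓ LinearMap.ker (P a), P w w' = 0) → w = 0 := by
  set W' := W ⊓ LinearMap.ker (P a) with hW'
  have hsplit : ∀ x ∈ W, x - P a x • a ∈ W' := fun x hx =>
    ⟨W.sub_mem hx (W.smul_mem _ ha), by simp [haa]⟩
  constructor
  · have hsup : Submodule.span F {a} ⊔ W' = W := by
      refine le_antisymm (sup_le ((Submodule.span_singleton_le_iff_mem a W).2 ha) inf_le_left)
        fun x hx => ?_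
      rw [← add_sub_cancel (P a x • a) x]
      exact Submodule.add_mem_sup (Submodule.smul_mem _ _ (Submodule.mem_span_singleton_self a))
        (hsplit x hx)
    have hinf : Submodule.span F {a} ⊓ W' = ⊥ := by
      rw [Submodule.eq_bot_iff]
      rintro x ⟨hx1, -, hx2⟩
      obtain ⟨c, rfl⟩ := Submodule.mem_span_singleton.1 hx1
      simp only [SetLike.mem_coe, LinearMap.mem_ker, map_smul, haa, smul_eq_mul, mul_one] at hx2
      simp [hx2]
    have ha0 : a ≠ 0 := fun h => by simp [h] at haa
    have := Submodule.finrank_sup_add_finrank_inf_eq (Submodule.span F {a}) W'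
    rw [hsup, hinf, finrank_bot, finrank_span_singleton ha0] at this
    omega
  · intro w hw h
    refine hnd w hw.1 fun x hx => ?_
    have h1 := h _ (hsplit x hx)
    rwa [map_sub, map_smul, hP w a, show P a w = 0 from hw.2, smul_zero, sub_zero] at h1

/-- Over a field of characteristic two in which all elements are squares, a non-degenerate
symmetric form which is not alternating has an orthonormal family. -/
theorem exists_orthonormal_family_two (P : LinearMap.BilinForm F V) (hP : ∀ x y, P x y = P y x)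
    (hsq : ∀ x : F, IsSquare x) :
    ∀ (n : ℕ) (W : Submodule F V), finrank F W = n →
      (∀ w ∈ W, (∀ w' ∈ W, P w w' = 0) → w = 0) → (n = 0 ∨ ∃ w ∈ W, P w w ≠ 0) →
      ∃ v : Fin n → V, (∀ i, v i ∈ W) ∧ ∀ i j, P (v i) (v j) = if i = j then 1 else 0 := by
  intro n
  induction n with
  | zero => exact fun W _ _ _ => ⟨Fin.elim0, fun i => i.elim0, fun i => i.elim0⟩
  | succ n ih =>
    intro W hW hnd hna
    obtain ⟨u, huW, hu⟩ := hna.resolve_left (Nat.succ_ne_zero n)
    obtain ⟨s, hs⟩ := hsq (P u u)⁻¹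
    set v := s • u with hv
    have hvW : v ∈ W := W.smul_mem _ huW
    have hvv : P v v = 1 := by
      simp only [hv, map_smul, LinearMap.smul_apply, smul_eq_mul, ← mul_assoc, ← hs,
        inv_mul_cancel₀ hu]
    obtain ⟨a, haW, haa, hna'⟩ : ∃ a ∈ W, P a a = 1 ∧
        (n = 0 ∨ ∃ w ∈ W ⊓ LinearMap.ker (P a), P w w ≠ 0) := by
      by_cases hn : n = 0
      · exact ⟨v, hvW, hvv, Or.inl hn⟩
      by_cases hex : ∃ w ∈ W ⊓ LinearMap.ker (P v), P w w ≠ 0
      · exact ⟨v, hvW, hvv, Or.inr hex⟩
      push Not at hex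
      obtain ⟨hdim, hnd'⟩ := split_unit P hP hnd hvW hvv
      obtain ⟨e, he, he0⟩ : ∃ e ∈ W ⊓ LinearMap.ker (P v), e ≠ 0 := by
        refine Submodule.exists_mem_ne_zero_of_ne_bot fun h => ?_
        rw [h, finrank_bot] at hdim
        omega
      obtain ⟨f, hf, hef⟩ : ∃ f ∈ W ⊓ LinearMap.ker (P v), P e f ≠ 0 := by
        by_contra h
        push Not at h
        exact he0 (hnd' e he h)
      have hve : P v e = 0 := he.2
      have hvf : P v f = 0 := hf.2
      refine ⟨v + e, W.add_mem hvW he.1, ?_, Or.inr ⟨v + (P e f)⁻¹ • f,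
        ⟨W.add_mem hvW (W.smul_mem _ hf.1), ?_⟩, ?_⟩⟩
      · simp [hvv, hve, hP e v, hex e he]
      · simp [hvv, hve, hP e v, hvf, inv_mul_cancel₀ hef, CharTwo.add_self_eq_zero]
      · simp [hvv, hvf, hP f v, hex f hf]
    obtain ⟨hdim, hnd'⟩ := split_unit P hP hnd haW haa
    obtain ⟨w, hwW, hw⟩ := ih (W ⊓ LinearMap.ker (P a)) (by omega) hnd' hna'
    have hwa : ∀ i, P (w i) a = 0 := fun i => (hP _ a).trans (hwW i).2
    refine ⟨Fin.cons a w, Fin.cases haW fun i => (hwW i).1, fun i j => ?_⟩
    induction i using Fin.cases with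
    | zero =>
      induction j using Fin.cases with
      | zero => simp [haa]
      | succ j => simp [show P a (w j) = 0 from (hwW j).2, Ne.symm (Fin.succ_ne_zero j)]
    | succ i =>
      induction j using Fin.cases with
      | zero => simp [hwa]
      | succ j => simp [hw]

end CfsgLib.InvolutionClasses
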