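import Cfsg.Agent.Lib.InvolutionClasses.Isometry
import Cfsg.Agent.Lib.Forms.Hermitian
import Cfsg.Agent.Lib.Forms.WittHermitian

/-!
Self-adjoint endomorphisms of square zero of a Hermitian space over a finite field of
characteristic two: equal rank gives an intertwining isometry, whose determinant can be adjusted.
-/

set_option autoImplicit false

namespace CfsgLib.InvolutionClasses

open Module

variable {F V : Type*} [Field F] [CharP F 2] [AddCommGroup V] [Module F V] [FiniteDimensional F V]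
  {σ : F →+* F} {B : V →ₛₗ[σ] V →ₗ[F] F}

omit [CharP F 2] in
/-- A dilation of a hyperbolic pair swapped by `N`. -/
theorem exists_scale (hS : B.IsSymm) {N : V →ₗ[F] V} (hN : ∀ v, N (N v) = 0)
    (hadj : ∀ u v, B (N u) v = B u (N v)) {e : V} (he : B e e = 0) (heN : B e (N e) = 1)
    {l : F} (hl : σ l * l = 1) :
    ∃ h : V →ₗ[F] V, (∀ u v, B (h u) (h v) = B u v) ∧ (∀ v, h (N v) = N (h v)) ∧
      LinearMap.det h = l * l := by
  have hNe : B (N e) e = 1 := by rw [hadj, heN]
  have hNN : B (N e) (N e) = 0 := by rw [hadj, hN, map_zero]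
  refine ⟨LinearMap.transvection ((l - 1) • B (N e)) e ∘ₗ LinearMap.transvection ((l - 1) • B e) (N e),
    fun u v => ?_, fun v => ?_, ?_⟩
  · simp only [LinearMap.comp_apply, LinearMap.transvection.apply, LinearMap.smul_apply, map_add,
      map_smul, map_smulₛₗ, LinearMap.add_apply, smul_eq_mul, map_mul, map_sub,
      map_one, map_zero, he, heN, hNe, hNN]
    rw [← hS.eq e u, ← hS.eq (N e) u]
    linear_combination (B (N e) v * σ (B e u) + B e v * σ (B (N e) u)) * hl
  · simp only [LinearMap.comp_apply, LinearMap.transvection.apply, LinearMap.smul_apply, map_add,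
      map_smul, smul_eq_mul, hNN, hN, hadj]
    simp
  · rw [LinearMap.det_comp, LinearMap.transvection.det, LinearMap.transvection.det,
      LinearMap.smul_apply, LinearMap.smul_apply, hNe, heN, smul_eq_mul]
    ring

/-- Two self-adjoint square zero maps of equal rank of a Hermitian space are intertwined by an
isometry, together with a dilation commuting with the first. -/
theorem exists_unitary_comm [Finite F] (hσ : σ ≠ RingHom.id F) (hσ2 : ∀ a, σ (σ a) = a)
    (hS : B.IsSymm) (hB : B.Nondegenerate) {N N' : V →ₗ[F] V} (hN : ∀ v, N (N v) = 0)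
    (hN' : ∀ v, N' (N' v) = 0) (hadj : ∀ u v, B (N u) v = B u (N v))
    (hadj' : ∀ u v, B (N' u) v = B u (N' v))
    (hr : finrank F (LinearMap.range N) = finrank F (LinearMap.range N')) (hN0 : N ≠ 0) :
    ∃ g : V ≃ₗ[F] V, (∀ u v, B (g u) (g v) = B u v) ∧ (∀ v, g (N v) = N' (g v)) ∧
      ∃ e, B e e = 0 ∧ B e (N e) = 1 := by
  set r := finrank F (LinearMap.range N) with hrdef
  have hfam : ∀ {M : V →ₗ[F] V}, (∀ u v, B (M u) v = B u (M v)) →
      finrank F (LinearMap.range M) = r →
      ∃ e : Fin r → V, ∀ i j, B (e i) (M (e j)) = if i = j then 1 else 0 := by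
    intro M hM hMr
    have hMS : (B.compl₂ M).IsSymm := ⟨fun u v => by
      simp only [LinearMap.compl₂_apply, hS.eq, hM]⟩
    obtain ⟨W, hW, -, hnd⟩ := exists_gram_complement hB.1 hM
    obtain ⟨e, -, he⟩ := CfsgLib.Forms.exists_orthonormal_family σ hσ hσ2 _ hMS r W
      (hW.trans hMr) hnd
    exact ⟨e, he⟩
  obtain ⟨θ, hθ⟩ := CfsgLib.Forms.exists_trace_eq_one σ hσ hσ2
  obtain ⟨e, he⟩ := hfam hadj rfl
  obtain ⟨e', he'⟩ := hfam hadj' hr.symm
  obtain ⟨g, hg, hgN, u, hu, hu0⟩ := exists_isometry_comm hσ2 hS hB.2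
    (fun x => ⟨θ * B x x, by rw [map_mul, hS.eq, ← add_mul, hθ, one_mul]⟩)
    (CfsgLib.Forms.witt_extension_hermitian σ hσ hσ2 B hS hB) hN hN' hadj hadj' he he'
    (fun c hc => funext fun i => by simpa using hc i) (by simp [hrdef]) (by simp [hr])
  have hpos : 0 < r := Nat.pos_of_ne_zero fun h0 =>
    hN0 (LinearMap.range_eq_bot.1 (Submodule.finrank_eq_zero.1 h0))
  exact ⟨g, hg, hgN, u ⟨0, hpos⟩, hu0 _ _, by simp [hu]⟩

end CfsgLib.InvolutionClasses
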